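import Mathlib
import Cfsg.Agent.Lib.Helper39.SqfDeg.Defs
import Cfsg.Agent.Lib.Helper39.ThreeDegC
import Cfsg.Agent.Lib.Helper80.CharKer

/-!
# S5010 package [NILP]: a nilpotent group with squarefree degrees is metabelian
-/

set_option autoImplicit false

namespace Cfsg.Agent.Lib.Helper67.SqfDeg

open Cfsg.Agent.Lib.Helper39.SqfDeg

universe u

/-- a normal `p`-subgroup of a group with squarefree degrees is metabelian -/
theorem pgroup_dl2 (hD : PkgDeg.{u}) (N : Type u) [Group N] [Finite N] (hS : SFD N)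
    (p : ℕ) [hp : Fact p.Prime] (P : Subgroup N) [P.Normal] (hP : IsPGroup p P) :
    derivedSeries ↥P 2 = ⊥ := by
  have hSP : SFD ↥P := (hD N P hS).1
  apply Cfsg.Agent.Lib.Helper39.ThreeDeg.two_deg_dl2 p
  intro χ
  have h1 : Cfsg.charDegree (χ : ↥P → ℂ) ∣ Nat.card ↥P :=
    Cfsg.Agent.Lib.Helper80.charDegree_dvd_card χ.2
  obtain ⟨n, hn⟩ := hP.exists_card_eq
  rw [hn] at h1
  obtain ⟨k, _, hk2⟩ := (Nat.dvd_prime_pow hp.out).mp h1
  have h2 := hSP χ
  rw [hk2] at h2 ⊢
  by_cases hk0 : k = 0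
  · left
    rw [hk0, pow_zero]
  · right
    have h3 := (Nat.squarefree_pow_iff hp.out.ne_one hk0).mp h2
    rw [h3.2, pow_one]

theorem pkgNilp_of (hD : PkgDeg.{u}) : PkgNilp.{u} := by
  intro N _ _ _ hS
  have htfae := Group.isNilpotent_of_finite_tfae (G := N)
  have hnorm : ∀ (p : ℕ) (_hp : Fact p.Prime) (P : Sylow p N), (↑P : Subgroup N).Normal :=
    (htfae.out 0 3 rfl rfl).mp inferInstance
  obtain ⟨e⟩ : Nonempty ((∀ p : (Nat.card N).primeFactors, ∀ P : Sylow p N,
      (↑P : Subgroup N)) ≃* N) := (htfae.out 0 4 rfl rfl).mp inferInstance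
  rw [eq_bot_iff]
  intro d hd
  rw [Subgroup.mem_bot]
  have h1 : e.symm d = 1 := by
    funext p
    funext P
    have : Fact (p : ℕ).Prime := ⟨Nat.prime_of_mem_primeFactors p.2⟩
    have := hnorm p inferInstance P
    let π : N →* ↥(P : Subgroup N) :=
      ((Pi.evalMonoidHom (fun P : Sylow (p : ℕ) N => ↥(P : Subgroup N)) P).comp
        (Pi.evalMonoidHom (fun p : (Nat.card N).primeFactors =>
          ∀ P : Sylow (p : ℕ) N, ↥(P : Subgroup N)) p)).comp e.symm.toMonoidHom
    have hπ : Function.Surjective π := by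
      intro y
      obtain ⟨f, hf⟩ := Function.surjective_eval
        (β := fun P : Sylow (p : ℕ) N => ↥(P : Subgroup N)) P y
      obtain ⟨g, hg⟩ := Function.surjective_eval
        (β := fun p : (Nat.card N).primeFactors => ∀ P : Sylow (p : ℕ) N, ↥(P : Subgroup N)) p f
      refine ⟨e g, ?_⟩
      show (e.symm (e g)) p P = y
      rw [MulEquiv.symm_apply_apply]
      have hg' : g p = f := hg
      have hf' : f P = y := hf
      rw [hg', hf']
    have h2 : (derivedSeries N 2).map π = derivedSeries ↥(P : Subgroup N) 2 :=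
      map_derivedSeries_eq hπ 2
    have h3 : π d ∈ derivedSeries ↥(P : Subgroup N) 2 := by
      rw [← h2]
      exact Subgroup.mem_map_of_mem π hd
    rw [pgroup_dl2 hD N hS p (P : Subgroup N) P.isPGroup'] at h3
    exact Subgroup.mem_bot.mp h3
  have h4 := congrArg e h1
  simpa using h4

end Cfsg.Agent.Lib.Helper67.SqfDeg
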